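import Cfsg.Agent.H917.FP.SLTwo
import Cfsg.Agent.H254.BS.PartI
import Cfsg.Agent.LieClassical.SLGen

/-!
# S5717, bounded rank: fixed point ratios of `SL_n(q)`, `n ≤ n₀`  (`BR_SL`)

* `adj` : if two different conjugates of `A` (under `j y`, `y ∈ Y`) always generate `B`, then
  `|Y| · |Fix A ∖ Fix B| ≤ |Ω|` (general, no transitivity).
* `root_le` : a transvection group fixes at most `3 n² |Ω| / q` points.
* `br_sl : BR_SL`.
-/

set_option autoImplicit false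
set_option linter.unusedSectionVars false

namespace Cfsg.Agent.H503.FP

open Matrix Cfsg.Agent.H917.FP

section Adj

variable {G : Type*} [Group G] (Ω : Type*) [MulAction G Ω]

/-- the points fixed by all elements of `A` -/
def Fx (A : Set G) : Set Ω := {w | ∀ a ∈ A, a • w = w}

theorem fpr_eq (A : Set G) : fpr Ω A = ((Fx Ω A).ncard : ℝ) / (Nat.card Ω : ℝ) := rfl

/-- the number of points fixed by `A` but not by `B` -/
noncomputable def D (A B : Set G) : ℝ := ((Fx Ω A \ Fx Ω B).ncard : ℝ)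

theorem D_nonneg (A B : Set G) : 0 ≤ D Ω A B := Nat.cast_nonneg _

theorem D_tri [Finite Ω] (A B C : Set G) : D Ω A C ≤ D Ω A B + D Ω B C := by
  unfold D
  have h : Fx Ω A \ Fx Ω C ⊆ (Fx Ω A \ Fx Ω B) ∪ (Fx Ω B \ Fx Ω C) := by
    rintro w ⟨h1, h2⟩
    by_cases h3 : w ∈ Fx Ω B
    · exact Or.inr ⟨h3, h2⟩
    · exact Or.inl ⟨h1, h3⟩
  have h4 := (Set.ncard_le_ncard h (Set.toFinite _)).trans (Set.ncard_union_le _ _)
  exact_mod_cast h4

theorem mem_Fx_closure {A B : Set G} {w : Ω} (hw : w ∈ Fx Ω A) (h : B ⊆ (Subgroup.closure A : Set G)) :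
    w ∈ Fx Ω B := by
  have h1 : Subgroup.closure A ≤ MulAction.stabilizer G w := by
    rw [Subgroup.closure_le]
    exact fun a ha => hw a ha
  exact fun b hb => h1 (h hb)

theorem D_eq_zero {A B : Set G} (h : B ⊆ (Subgroup.closure A : Set G)) : D Ω A B = 0 := by
  unfold D
  rw [Set.diff_eq_empty.2 fun w hw => mem_Fx_closure Ω hw h, Set.ncard_empty, Nat.cast_zero]

/-- **adjacency.** -/
theorem adj [Finite Ω] {Y : Type*} [Finite Y] (j : Y → G) (A B : Set G)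
    (h : ∀ y y', y ≠ y' → B ⊆ (Subgroup.closure (A ∪ cj ((j y')⁻¹ * j y) A) : Set G)) :
    (Nat.card Y : ℝ) * D Ω A B ≤ (Nat.card Ω : ℝ) := by
  unfold D
  have h1 : Function.Injective (fun p : Y × ↥(Fx Ω A \ Fx Ω B) => j p.1 • (p.2 : Ω)) := by
    rintro ⟨y, w, hw1, hw2⟩ ⟨y', w', hw1', hw2'⟩ he
    have he' : j y • w = j y' • w' := he
    have hz : ((j y')⁻¹ * j y) • w = w' := by rw [mul_smul, he', inv_smul_smul]
    by_cases hy : y = y'
    · subst hy
      rw [inv_mul_cancel, one_smul] at hz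
      subst hz
      rfl
    · exfalso
      apply hw2'
      refine mem_Fx_closure Ω (A := A ∪ cj ((j y')⁻¹ * j y) A) ?_ (h y y' hy)
      rintro a (ha | ⟨a, ha, rfl⟩)
      · exact hw1' a ha
      · show ((j y')⁻¹ * j y * a * ((j y')⁻¹ * j y)⁻¹) • w' = w'
        rw [← hz, smul_smul, inv_mul_cancel_right, mul_smul, hw1 a ha]
  have h2 := Nat.card_le_card_of_injective _ h1
  rw [Nat.card_prod, Nat.card_coe_set_eq] at h2
  exact_mod_cast h2

end Adj

section Root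

variable {F : Type*} [Field F] {ι : Type*} [Fintype ι] [DecidableEq ι]

theorem val_mul (A B : SpecialLinearGroup ι F) : (A * B).1 = A.1 * B.1 := rfl

theorem val_one : (1 : SpecialLinearGroup ι F).1 = 1 := rfl

/-- the transvection `1 + t v fᵀ` -/
def tv (v f : ι → F) (h : f ⬝ᵥ v = 0) (t : F) : SpecialLinearGroup ι F :=
  ⟨1 + t • vecMulVec v f, by
    rw [← vecMulVec_smul, vecMulVec_eq Unit, det_one_add_replicateCol_mul_replicateRow, smul_dotProduct, h, smul_zero,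
      add_zero]⟩

theorem coe_tv (v f : ι → F) (h : f ⬝ᵥ v = 0) (t : F) :
    (tv v f h t).1 = 1 + t • vecMulVec v f := rfl

theorem tv_mul (v f : ι → F) (h : f ⬝ᵥ v = 0) (s t : F) : tv v f h s * tv v f h t = tv v f h (s + t) := by
  apply Subtype.ext
  rw [val_mul, coe_tv, coe_tv, coe_tv, add_mul, mul_add, mul_add, one_mul, one_mul, mul_one,
    smul_mul_smul_comm, vecMulVec_mul_vecMulVec, h, zero_smul, vecMulVec_zero, smul_zero, add_zero, add_smul]
  abel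

theorem tv_zero (v f : ι → F) (h : f ⬝ᵥ v = 0) : tv v f h 0 = 1 := by
  apply Subtype.ext
  rw [coe_tv, zero_smul, add_zero, val_one]

theorem tv_inv (v f : ι → F) (h : f ⬝ᵥ v = 0) (t : F) : (tv v f h t)⁻¹ = tv v f h (-t) := by
  rw [inv_eq_iff_mul_eq_one, tv_mul, add_neg_cancel, tv_zero]

/-- the root group of `v ⊗ f` -/
def Rt (v f : ι → F) : Set (SpecialLinearGroup ι F) := {g | ∃ (h : f ⬝ᵥ v = 0) (t : F), g = tv v f h t}

/-- row step -/
theorem row_conj {v f f' w : ι → F} (h : f ⬝ᵥ v = 0) (h' : f' ⬝ᵥ v = 0) (hw : f ⬝ᵥ w = 1) (hw' : f' ⬝ᵥ w = 0)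
    (s t : F) :
    (tv v f h t)⁻¹ * (tv w f' hw' s * tv v f h t * (tv w f' hw' s)⁻¹) = tv v f' h' (-(s * t)) := by
  apply Subtype.ext
  rw [tv_inv, tv_inv]
  simp only [val_mul, coe_tv]
  have e1 : vecMulVec w f' * vecMulVec v f = 0 := by
    rw [vecMulVec_mul_vecMulVec, h', zero_smul, vecMulVec_zero]
  have e2 : vecMulVec v f * vecMulVec w f' = vecMulVec v f' := by
    rw [vecMulVec_mul_vecMulVec, hw, one_smul]
  have e3 : vecMulVec w f' * vecMulVec w f' = 0 := by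
    rw [vecMulVec_mul_vecMulVec, hw', zero_smul, vecMulVec_zero]
  have e4 : vecMulVec v f * vecMulVec v f = 0 := by
    rw [vecMulVec_mul_vecMulVec, h, zero_smul, vecMulVec_zero]
  have e5 : vecMulVec v f * vecMulVec v f' = 0 := by
    rw [vecMulVec_mul_vecMulVec, h, zero_smul, vecMulVec_zero]
  simp only [add_mul, mul_add, one_mul, mul_one, smul_mul_assoc, mul_smul_comm, e1, e2, e3, e4, e5, smul_zero,
    zero_mul, mul_zero, add_zero, zero_add, Matrix.smul_mul, Matrix.mul_smul]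
  module

/-- column step -/
theorem col_conj {v v' f h : ι → F} (hf : f ⬝ᵥ v = 0) (hf' : f ⬝ᵥ v' = 0) (hv : h ⬝ᵥ v = 1) (hv' : h ⬝ᵥ v' = 0)
    (s t : F) :
    (tv v f hf t)⁻¹ * (tv v' h hv' s * tv v f hf t * (tv v' h hv' s)⁻¹) = tv v' f hf' (s * t) := by
  apply Subtype.ext
  rw [tv_inv, tv_inv]
  simp only [val_mul, coe_tv]
  have e1 : vecMulVec v' h * vecMulVec v f = vecMulVec v' f := by
    rw [vecMulVec_mul_vecMulVec, hv, one_smul]
  have e2 : vecMulVec v f * vecMulVec v' h = 0 := by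
    rw [vecMulVec_mul_vecMulVec, hf', zero_smul, vecMulVec_zero]
  have e3 : vecMulVec v' h * vecMulVec v' h = 0 := by
    rw [vecMulVec_mul_vecMulVec, hv', zero_smul, vecMulVec_zero]
  have e4 : vecMulVec v f * vecMulVec v f = 0 := by
    rw [vecMulVec_mul_vecMulVec, hf, zero_smul, vecMulVec_zero]
  have e5 : vecMulVec v f * vecMulVec v' f = 0 := by
    rw [vecMulVec_mul_vecMulVec, hf', zero_smul, vecMulVec_zero]
  have e6 : vecMulVec v' f * vecMulVec v' h = 0 := by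
    rw [vecMulVec_mul_vecMulVec, hf', zero_smul, vecMulVec_zero]
  simp only [add_mul, mul_add, one_mul, mul_one, smul_mul_assoc, mul_smul_comm, e1, e2, e3, e4, e5, e6, smul_zero,
    zero_mul, mul_zero, add_zero, zero_add, Matrix.smul_mul, Matrix.mul_smul]
  module

/-- a vector with two prescribed values -/
theorem exists_dot {u w : ι → F} (h : w ∉ Submodule.span F {u}) : ∃ f : ι → F, f ⬝ᵥ u = 0 ∧ f ⬝ᵥ w = 1 := by
  obtain ⟨φ, h1, h2⟩ : ∃ φ : Module.Dual F (ι → F), φ u = 0 ∧ φ w = 1 := by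
    obtain ⟨f, hf1, hf2⟩ := Submodule.exists_dual_map_eq_bot_of_notMem h inferInstance
    have hu : f u = 0 := by
      have h1 : f u ∈ Submodule.map f (Submodule.span F {u}) :=
        ⟨u, Submodule.mem_span_singleton_self u, rfl⟩
      rw [hf2] at h1
      simpa using h1
    exact ⟨(f w)⁻¹ • f, by simp [hu], by simp [hf1]⟩
  have h3 : ∀ x : ι → F, (fun i => φ (Pi.single i 1)) ⬝ᵥ x = φ x := by
    intro x
    rw [LinearMap.pi_apply_eq_sum_univ φ x]
    refine Finset.sum_congr rfl fun i _ => ?_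
    have e : (fun j => if i = j then (1 : F) else 0) = Pi.single i 1 := by
      ext j
      rw [Pi.single_apply]
      simp only [eq_comm]
    rw [smul_eq_mul, e, mul_comm]
  exact ⟨fun i => φ (Pi.single i 1), by rw [h3, h1], by rw [h3, h2]⟩

theorem Rt_smul_right (v f : ι → F) (c : F) : Rt v (c • f) ⊆ Rt v f ∪ {1} := by
  rintro _ ⟨h, t, rfl⟩
  by_cases hc : c = 0
  · right
    apply Subtype.ext
    rw [coe_tv, hc, zero_smul, vecMulVec_zero, smul_zero, add_zero]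
    rfl
  · left
    have h' : f ⬝ᵥ v = 0 := by
      rw [smul_dotProduct, smul_eq_mul] at h
      exact (mul_eq_zero.1 h).resolve_left hc
    refine ⟨h', t * c, ?_⟩
    apply Subtype.ext
    rw [coe_tv, coe_tv, vecMulVec_smul, smul_smul]

theorem Rt_smul_left (v f : ι → F) (c : F) : Rt (c • v) f ⊆ Rt v f ∪ {1} := by
  rintro _ ⟨h, t, rfl⟩
  by_cases hc : c = 0
  · right
    apply Subtype.ext
    rw [coe_tv, hc, zero_smul, zero_vecMulVec, smul_zero, add_zero]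
    rfl
  · left
    have h' : f ⬝ᵥ v = 0 := by
      rw [dotProduct_smul, smul_eq_mul] at h
      exact (mul_eq_zero.1 h).resolve_left hc
    refine ⟨h', t * c, ?_⟩
    apply Subtype.ext
    rw [coe_tv, coe_tv, smul_vecMulVec, smul_smul]

end Root

section Dist

variable {F : Type*} [Field F] [Finite F] {ι : Type*} [Fintype ι] [DecidableEq ι]
  (Ω : Type*) [MulAction (SpecialLinearGroup ι F) Ω] [Finite Ω]

theorem row_step {v f f' : ι → F} (h : f ⬝ᵥ v = 0) (h' : f' ⬝ᵥ v = 0) (hf : f ≠ 0) :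
    (Nat.card F : ℝ) * D Ω (Rt v f) (Rt v f') ≤ (Nat.card Ω : ℝ) := by
  by_cases hs : f ∈ Submodule.span F {f'}
  · obtain ⟨c, rfl⟩ := Submodule.mem_span_singleton.1 hs
    have hc : c ≠ 0 := by
      rintro rfl
      exact hf (zero_smul _ _)
    rw [D_eq_zero, mul_zero]
    · exact Nat.cast_nonneg _
    · intro a ha
      have h1 := Rt_smul_right v (c • f') c⁻¹
      rw [smul_smul, inv_mul_cancel₀ hc, one_smul] at h1
      rcases h1 ha with h2 | h2
      · exact Subgroup.subset_closure h2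
      · rw [h2]
        exact one_mem _
  · obtain ⟨w, hw1, hw2⟩ := exists_dot hs
    rw [dotProduct_comm] at hw1 hw2
    refine adj Ω (Y := F) (fun s => tv w f' hw1 s) _ _ ?_
    rintro y y' hy _ ⟨h1, r, rfl⟩
    have hyy : y - y' ≠ 0 := sub_ne_zero.2 hy
    have e1 : (tv w f' hw1 y')⁻¹ * tv w f' hw1 y = tv w f' hw1 (y - y') := by
      rw [tv_inv, tv_mul, neg_add_eq_sub]
    have e2 := row_conj h h1 hw2 hw1 (y - y') (-(r / (y - y')))
    have e3 : -((y - y') * -(r / (y - y'))) = r := by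
      field_simp
    rw [e3] at e2
    show tv v f' h1 r ∈ Subgroup.closure _
    rw [← e2]
    refine mul_mem (inv_mem (Subgroup.subset_closure (Or.inl ⟨h, _, rfl⟩))) ?_
    refine Subgroup.subset_closure (Or.inr ?_)
    show _ ∈ cj ((tv w f' hw1 y')⁻¹ * tv w f' hw1 y) (Rt v f)
    rw [e1]
    exact ⟨_, ⟨h, _, rfl⟩, rfl⟩

theorem col_step {v v' f : ι → F} (h : f ⬝ᵥ v = 0) (h' : f ⬝ᵥ v' = 0) (hv : v ≠ 0) :
    (Nat.card F : ℝ) * D Ω (Rt v f) (Rt v' f) ≤ (Nat.card Ω : ℝ) := by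
  by_cases hs : v ∈ Submodule.span F {v'}
  · obtain ⟨c, rfl⟩ := Submodule.mem_span_singleton.1 hs
    have hc : c ≠ 0 := by
      rintro rfl
      exact hv (zero_smul _ _)
    rw [D_eq_zero, mul_zero]
    · exact Nat.cast_nonneg _
    · intro a ha
      have h1 := Rt_smul_left (c • v') f c⁻¹
      rw [smul_smul, inv_mul_cancel₀ hc, one_smul] at h1
      rcases h1 ha with h2 | h2
      · exact Subgroup.subset_closure h2
      · rw [h2]
        exact one_mem _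
  · obtain ⟨w, hw1, hw2⟩ := exists_dot hs
    refine adj Ω (Y := F) (fun s => tv v' w hw1 s) _ _ ?_
    rintro y y' hy _ ⟨h1, r, rfl⟩
    have hyy : y - y' ≠ 0 := sub_ne_zero.2 hy
    have e1 : (tv v' w hw1 y')⁻¹ * tv v' w hw1 y = tv v' w hw1 (y - y') := by
      rw [tv_inv, tv_mul, neg_add_eq_sub]
    have e2 := col_conj h h1 hw2 hw1 (y - y') (r / (y - y'))
    have e3 : (y - y') * (r / (y - y')) = r := by
      field_simp
    rw [e3] at e2
    show tv v' f h1 r ∈ Subgroup.closure _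
    rw [← e2]
    refine mul_mem (inv_mem (Subgroup.subset_closure (Or.inl ⟨h, _, rfl⟩))) ?_
    refine Subgroup.subset_closure (Or.inr ?_)
    show _ ∈ cj ((tv v' w hw1 y')⁻¹ * tv v' w hw1 y) (Rt v f)
    rw [e1]
    exact ⟨_, ⟨h, _, rfl⟩, rfl⟩

/-- a common annihilator of two vectors -/
theorem exists_common (h3 : 3 ≤ Fintype.card ι) (v v' : ι → F) :
    ∃ h : ι → F, h ≠ 0 ∧ h ⬝ᵥ v = 0 ∧ h ⬝ᵥ v' = 0 := by
  let L : (ι → F) →ₗ[F] F × F :=
    { toFun := fun h => (h ⬝ᵥ v, h ⬝ᵥ v')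
      map_add' := fun a b => by simp [add_dotProduct]
      map_smul' := fun c a => by simp [smul_dotProduct] }
  have h1 : LinearMap.ker L ≠ ⊥ := by
    apply LinearMap.ker_ne_bot_of_finrank_lt
    rw [Module.finrank_prod, Module.finrank_self, Module.finrank_pi]
    omega
  obtain ⟨h, hh, h0⟩ := Submodule.exists_mem_ne_zero_of_ne_bot h1
  have h2 : (h ⬝ᵥ v, h ⬝ᵥ v') = (0, 0) := hh
  exact ⟨h, h0, (Prod.ext_iff.1 h2).1, (Prod.ext_iff.1 h2).2⟩

/-- all long root groups are at distance at most 3 -/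
theorem link (h3 : 3 ≤ Fintype.card ι) {v f v' f' : ι → F} (h : f ⬝ᵥ v = 0) (h' : f' ⬝ᵥ v' = 0) (hv : v ≠ 0)
    (hf : f ≠ 0) : (Nat.card F : ℝ) * D Ω (Rt v f) (Rt v' f') ≤ 3 * (Nat.card Ω : ℝ) := by
  obtain ⟨k, hk0, hk, hk'⟩ := exists_common h3 v v'
  have a1 := row_step Ω h hk hf
  have a2 := col_step Ω hk hk' hv
  have a3 := row_step Ω hk' h' hk0
  have b1 := D_tri Ω (Rt v f) (Rt v k) (Rt v' f')
  have b2 := D_tri Ω (Rt v k) (Rt v' k) (Rt v' f')
  have hq : (0 : ℝ) ≤ Nat.card F := Nat.cast_nonneg _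
  nlinarith

/-- **a root group fixes few points** -/
theorem root_le (h3 : 3 ≤ Fintype.card ι) (hΩ : ∀ w : Ω, ∃ g : SpecialLinearGroup ι F, g • w ≠ w) {v f : ι → F}
    (h : f ⬝ᵥ v = 0) (hv : v ≠ 0) (hf : f ≠ 0) :
    fpr Ω (Rt v f) ≤ 3 * (Fintype.card ι : ℝ) ^ 2 / (Nat.card F : ℝ) := by
  classical
  have h1 : Fx Ω (Rt v f) ⊆ ⋃ p ∈ (Finset.univ : Finset (ι × ι)), if p.1 = p.2 then (∅ : Set Ω) else
      Fx Ω (Rt v f) \ Fx Ω (Rt (Pi.single p.1 (1 : F)) (Pi.single p.2 (1 : F))) := by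
    intro w hw
    by_contra hcon
    rw [Set.mem_iUnion₂] at hcon
    push Not at hcon
    have h2 : LieClassical.SLGen.transvections ι F ⊆
        (MulAction.stabilizer (SpecialLinearGroup ι F) w : Set (SpecialLinearGroup ι F)) := by
      rintro _ ⟨i, j, hij, c, rfl⟩
      have h3 := hcon (i, j) (Finset.mem_univ _)
      rw [if_neg hij] at h3
      have h4 : w ∈ Fx Ω (Rt (Pi.single i (1 : F)) (Pi.single j (1 : F))) := by
        by_contra h5
        exact h3 ⟨hw, h5⟩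
      have h5 : (Pi.single j (1 : F) : ι → F) ⬝ᵥ Pi.single i (1 : F) = 0 := by
        rw [single_dotProduct, Pi.single_eq_of_ne hij.symm, mul_zero]
      have h6 : SpecialLinearGroup.transvection hij c = tv (Pi.single i (1 : F)) (Pi.single j (1 : F)) h5 c := by
        apply Subtype.ext
        rw [coe_tv]
        show 1 + Matrix.single i j c = _
        rw [← Matrix.single_eq_single_vecMulVec_single, Matrix.smul_single, smul_eq_mul, mul_one]
      rw [h6]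
      exact h4 _ ⟨h5, c, rfl⟩
    obtain ⟨g, hg⟩ := hΩ w
    apply hg
    have h7 : g ∈ Subgroup.closure (LieClassical.SLGen.transvections ι F) := by
      rw [LieClassical.SLGen.closure_transvections]
      exact Subgroup.mem_top _
    exact (Subgroup.closure_le _).2 h2 h7
  rcases Nat.eq_zero_or_pos (Nat.card Ω) with h0 | h0
  · rw [fpr_eq, h0, Nat.cast_zero, div_zero]
    positivity
  have hN : (0 : ℝ) < Nat.card Ω := by exact_mod_cast h0
  have hq : (0 : ℝ) < Nat.card F := by exact_mod_cast Nat.card_pos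
  have h4 : ((Fx Ω (Rt v f)).ncard : ℝ) ≤ ∑ p : ι × ι, (3 * (Nat.card Ω : ℝ) / Nat.card F) := by
    have h5 := Set.ncard_le_ncard h1 (Set.toFinite _)
    have h6 := h5.trans (Finset.set_ncard_biUnion_le _ _)
    have h7 : ((Fx Ω (Rt v f)).ncard : ℝ) ≤ ∑ p : ι × ι, ((if p.1 = p.2 then (∅ : Set Ω) else
      Fx Ω (Rt v f) \ Fx Ω (Rt (Pi.single p.1 (1 : F)) (Pi.single p.2 (1 : F)))).ncard : ℝ) := by
      exact_mod_cast h6
    refine h7.trans (Finset.sum_le_sum fun p _ => ?_)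
    rw [le_div_iff₀ hq]
    split_ifs with hp
    · rw [Set.ncard_empty, Nat.cast_zero, zero_mul]
      positivity
    · rw [mul_comm]
      refine link Ω h3 h ?_ hv hf
      rw [single_dotProduct, Pi.single_eq_of_ne (Ne.symm hp), mul_zero]
  rw [Finset.sum_const, Finset.card_univ, Fintype.card_prod, nsmul_eq_mul] at h4
  rw [fpr_eq, div_le_div_iff₀ hN hq]
  push_cast at h4
  rw [mul_div_assoc', le_div_iff₀ hq] at h4
  nlinarith

end Dist

section Blk

variable {F : Type*} [Field F] {ι : Type*} [Fintype ι] [DecidableEq ι]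

/-- columns `v`, `w` -/
def Pm (v w : ι → F) : Matrix ι (Fin 2) F := (Matrix.of ![v, w])ᵀ

/-- rows `g`, `f` -/
def Qm (g f : ι → F) : Matrix (Fin 2) ι F := Matrix.of ![g, f]

theorem Qm_Pm {v w g f : ι → F} (h1 : g ⬝ᵥ v = 1) (h2 : g ⬝ᵥ w = 0) (h3 : f ⬝ᵥ v = 0) (h4 : f ⬝ᵥ w = 1) :
    Qm g f * Pm v w = 1 := by
  ext i j
  rw [Matrix.mul_apply]
  fin_cases i <;> fin_cases j
  · exact h1
  · exact h2
  · exact h3
  · exact h4

/-- `SL₂` on the plane of `v`, `w` -/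
noncomputable def blk (v w g f : ι → F) (h1 : g ⬝ᵥ v = 1) (h2 : g ⬝ᵥ w = 0) (h3 : f ⬝ᵥ v = 0) (h4 : f ⬝ᵥ w = 1) :
    SpecialLinearGroup (Fin 2) F →* SpecialLinearGroup ι F where
  toFun A := ⟨1 + Pm v w * (A.1 - 1) * Qm g f, by
    rw [Matrix.mul_assoc, Matrix.det_one_add_mul_comm, Matrix.mul_assoc, Qm_Pm h1 h2 h3 h4, Matrix.mul_one,
      add_sub_cancel]
    exact A.2⟩
  map_one' := by
    apply Subtype.ext
    show 1 + Pm v w * ((1 : Matrix (Fin 2) (Fin 2) F) - 1) * Qm g f = 1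
    rw [sub_self, Matrix.mul_zero, Matrix.zero_mul, add_zero]
  map_mul' A B := by
    apply Subtype.ext
    show 1 + Pm v w * (A.1 * B.1 - 1) * Qm g f =
      (1 + Pm v w * (A.1 - 1) * Qm g f) * (1 + Pm v w * (B.1 - 1) * Qm g f)
    have e : (Pm v w * (A.1 - 1) * Qm g f) * (Pm v w * (B.1 - 1) * Qm g f) =
        Pm v w * ((A.1 - 1) * (B.1 - 1)) * Qm g f := by
      calc (Pm v w * (A.1 - 1) * Qm g f) * (Pm v w * (B.1 - 1) * Qm g f)
          = Pm v w * (A.1 - 1) * (Qm g f * Pm v w) * (B.1 - 1) * Qm g f := by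
            simp only [Matrix.mul_assoc]
        _ = _ := by rw [Qm_Pm h1 h2 h3 h4, Matrix.mul_one, Matrix.mul_assoc (Pm v w)]
    rw [add_mul, mul_add, mul_add, one_mul, one_mul, mul_one, e]
    have e2 : A.1 * B.1 - 1 = (A.1 - 1) + (B.1 - 1) + (A.1 - 1) * (B.1 - 1) := by noncomm_ring
    rw [e2, Matrix.mul_add, Matrix.mul_add, Matrix.add_mul, Matrix.add_mul]
    abel

/-- lower and upper unipotent elements -/
def lo (c : F) : SpecialLinearGroup (Fin 2) F := ⟨!![1, 0; c, 1], by rw [det_fin_two_of]; ring⟩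

def hi (t : F) : SpecialLinearGroup (Fin 2) F := ⟨!![1, t; 0, 1], by rw [det_fin_two_of]; ring⟩

variable {v w g f : ι → F} (h1 : g ⬝ᵥ v = 1) (h2 : g ⬝ᵥ w = 0) (h3 : f ⬝ᵥ v = 0) (h4 : f ⬝ᵥ w = 1)

theorem blk_hi (t : F) : blk v w g f h1 h2 h3 h4 (hi t) = tv v f h3 t := by
  apply Subtype.ext
  show 1 + Pm v w * (!![1, t; 0, 1] - 1) * Qm g f = 1 + t • vecMulVec v f
  congr 1
  ext i j
  simp [Matrix.mul_apply, Pm, Qm, vecMulVec_apply, Fin.sum_univ_two, Matrix.one_apply]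
  ring

theorem blk_lo (c : F) : blk v w g f h1 h2 h3 h4 (lo c) = tv w g h2 c := by
  apply Subtype.ext
  show 1 + Pm v w * (!![1, 0; c, 1] - 1) * Qm g f = 1 + c • vecMulVec w g
  congr 1
  ext i j
  simp [Matrix.mul_apply, Pm, Qm, vecMulVec_apply, Fin.sum_univ_two, Matrix.one_apply]
  ring

theorem lo_hi_notMem (c : F) {t : F} (ht : t ≠ 0) :
    lo c * hi t ∉ Subgroup.center (SpecialLinearGroup (Fin 2) F) := by
  intro h
  obtain ⟨r, -, hr⟩ := Matrix.SpecialLinearGroup.mem_center_iff.1 h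
  have h1 := congrFun (congrFun hr 0) 1
  have h2 : (lo c * hi t).1 0 1 = t := by
    rw [val_mul]
    simp [lo, hi, Matrix.mul_apply, Fin.sum_univ_two]
  have h3 : (Matrix.scalar (Fin 2) r) 0 1 = (0 : F) := by simp
  rw [h3] at h1
  exact ht (h2.symm.trans h1.symm)

/-- a noncentral element moves a line -/
theorem exists_moved {x : SpecialLinearGroup ι F} (hx : x ∉ Subgroup.center (SpecialLinearGroup ι F)) :
    ∃ v : ι → F, x.1 *ᵥ v ∉ Submodule.span F {v} := by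
  by_contra hcon
  push Not at hcon
  apply hx
  obtain ⟨a, ha⟩ := (Matrix.toLin' x.1).exists_eq_smul_id_of_forall_notLinearIndependent fun v => by
    by_cases hv : v = 0
    · simp [hv, linearIndependent_fin2]
    · rw [LinearIndependent.pair_iff' hv]
      push Not
      obtain ⟨c, hc⟩ := Submodule.mem_span_singleton.1 (hcon v)
      exact ⟨c, hc⟩
  have h1 : ∀ y : ι → F, x.1 *ᵥ y = a • y := fun y => by
    have := LinearMap.congr_fun ha y
    simpa using this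
  rw [Subgroup.mem_center_iff]
  intro z
  apply Subtype.ext
  rw [val_mul, val_mul]
  apply Matrix.ext_of_mulVec_single
  intro i
  rw [← Matrix.mulVec_mulVec, ← Matrix.mulVec_mulVec, h1, h1, Matrix.mulVec_smul]

/-- the conjugate of a transvection -/
theorem conj_tv (x : SpecialLinearGroup ι F) (v f : ι → F) (h : f ⬝ᵥ v = 0) (h' : (f ᵥ* x⁻¹.1) ⬝ᵥ (x.1 *ᵥ v) = 0)
    (t : F) : x * tv v f h t * x⁻¹ = tv (x.1 *ᵥ v) (f ᵥ* x⁻¹.1) h' t := by
  apply Subtype.ext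
  rw [val_mul, val_mul, coe_tv, coe_tv, mul_add, mul_one, add_mul]
  have e1 : x.1 * x⁻¹.1 = 1 := by rw [← val_mul, mul_inv_cancel, val_one]
  rw [e1, Matrix.mul_smul, Matrix.smul_mul, ← Matrix.mul_vecMulVec, ← Matrix.vecMulVec_mul, Matrix.mul_assoc]

/-- a functional vanishing at `v`, not vanishing at two vectors not in the line of `v` -/
theorem exists_two {v y z : ι → F} (hy : y ∉ Submodule.span F {v}) (hz : z ∉ Submodule.span F {v}) :
    ∃ f : ι → F, f ⬝ᵥ v = 0 ∧ f ⬝ᵥ y ≠ 0 ∧ f ⬝ᵥ z ≠ 0 := by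
  obtain ⟨f1, a1, a2⟩ := exists_dot hy
  obtain ⟨f2, b1, b2⟩ := exists_dot hz
  by_cases h1 : f1 ⬝ᵥ z = 0
  · by_cases h2 : f2 ⬝ᵥ y = 0
    · refine ⟨f1 + f2, ?_, ?_, ?_⟩
      · rw [add_dotProduct, a1, b1, add_zero]
      · rw [add_dotProduct, a2, h2, add_zero]
        exact one_ne_zero
      · rw [add_dotProduct, h1, b2, zero_add]
        exact one_ne_zero
    · exact ⟨f2, b1, h2, by rw [b2]; exact one_ne_zero⟩
  · exact ⟨f1, a1, by rw [a2]; exact one_ne_zero, h1⟩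

end Blk

section Main

variable {F : Type*} [Field F] [Fintype F] {ι : Type*} [Fintype ι] [DecidableEq ι]
  (Ω : Type*) [MulAction (SpecialLinearGroup ι F) Ω] [Finite Ω]

theorem fpr_sq_le (h4 : 4 ≤ Fintype.card F) (h3 : 3 ≤ Fintype.card ι)
    (hΩ : ∀ w : Ω, ∃ g : SpecialLinearGroup ι F, g • w ≠ w) {x : SpecialLinearGroup ι F}
    (hx : x ∉ Subgroup.center (SpecialLinearGroup ι F)) :
    fpr Ω {x} ^ 2 ≤ 3 * (Fintype.card ι : ℝ) ^ 2 / (Fintype.card F : ℝ) + 7 / √(Fintype.card F : ℝ) +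
      1 / (Fintype.card F : ℝ) := by
  classical
  have e1 : x⁻¹.1 * x.1 = 1 := by rw [← val_mul, inv_mul_cancel, val_one]
  have e2 : x.1 * x⁻¹.1 = 1 := by rw [← val_mul, mul_inv_cancel, val_one]
  obtain ⟨v, hv⟩ := exists_moved hx
  have hv0 : v ≠ 0 := by
    rintro rfl
    apply hv
    rw [Matrix.mulVec_zero]
    exact zero_mem _
  have hv' : x⁻¹.1 *ᵥ v ∉ Submodule.span F {v} := by
    intro hc
    obtain ⟨c, hc⟩ := Submodule.mem_span_singleton.1 hc
    have h5 : c • (x.1 *ᵥ v) = v := by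
      rw [← Matrix.mulVec_smul, hc, Matrix.mulVec_mulVec, e2, Matrix.one_mulVec]
    have hc0 : c ≠ 0 := by
      rintro rfl
      exact hv0 (by rw [← h5, zero_smul])
    apply hv
    rw [Submodule.mem_span_singleton]
    refine ⟨c⁻¹, ?_⟩
    calc c⁻¹ • v = c⁻¹ • (c • (x.1 *ᵥ v)) := by rw [h5]
      _ = x.1 *ᵥ v := by rw [smul_smul, inv_mul_cancel₀ hc0, one_smul]
  obtain ⟨f, f0, fa, fb⟩ := exists_two hv hv'
  have hf0 : f ≠ 0 := by
    rintro rfl
    exact fa (zero_dotProduct _)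
  have k1 : ((f ⬝ᵥ x⁻¹.1 *ᵥ v)⁻¹ • (f ᵥ* x⁻¹.1)) ⬝ᵥ v = 1 := by
    rw [smul_dotProduct, ← Matrix.dotProduct_mulVec, smul_eq_mul, inv_mul_cancel₀ fb]
  have k0 : (f ᵥ* x⁻¹.1) ⬝ᵥ (x.1 *ᵥ v) = 0 := by
    rw [← Matrix.dotProduct_mulVec, Matrix.mulVec_mulVec, e1, Matrix.one_mulVec, f0]
  have k2 : ((f ⬝ᵥ x⁻¹.1 *ᵥ v)⁻¹ • (f ᵥ* x⁻¹.1)) ⬝ᵥ ((f ⬝ᵥ x.1 *ᵥ v)⁻¹ • (x.1 *ᵥ v)) = 0 := by
    rw [smul_dotProduct, dotProduct_smul, k0, smul_zero, smul_zero]
  have k4 : f ⬝ᵥ ((f ⬝ᵥ x.1 *ᵥ v)⁻¹ • (x.1 *ᵥ v)) = 1 := by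
    rw [dotProduct_smul, smul_eq_mul, inv_mul_cancel₀ fa]
  let φ := blk v ((f ⬝ᵥ x.1 *ᵥ v)⁻¹ • (x.1 *ᵥ v)) ((f ⬝ᵥ x⁻¹.1 *ᵥ v)⁻¹ • (f ᵥ* x⁻¹.1)) f k1 k2 f0 k4
  let j : Multiplicative F →* SpecialLinearGroup ι F :=
    { toFun := fun s => tv v f f0 s.toAdd
      map_one' := tv_zero v f f0
      map_mul' := fun s t => (tv_mul v f f0 s.toAdd t.toAdd).symm }
  have hq : (0 : ℝ) < Fintype.card F := by exact_mod_cast Fintype.card_pos
  have key := cs_comm_hom Ω j x {1}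
    (3 * (Fintype.card ι : ℝ) ^ 2 / (Fintype.card F : ℝ) + 7 / √(Fintype.card F : ℝ)) (by positivity) ?_
  · rw [Nat.card_unique, Nat.card_eq_fintype_card (α := Multiplicative F), Fintype.card_multiplicative,
      Nat.cast_one] at key
    exact key
  intro y hy
  have hy0 : y.toAdd ≠ 0 := fun h => hy h
  have e3 : x * (j y * x⁻¹ * (j y)⁻¹) =
      φ (lo ((f ⬝ᵥ x.1 *ᵥ v) * (f ⬝ᵥ x⁻¹.1 *ᵥ v) * y.toAdd) * hi (-y.toAdd)) := by
    rw [map_mul]
    show x * (tv v f f0 y.toAdd * x⁻¹ * (tv v f f0 y.toAdd)⁻¹) = blk _ _ _ _ _ _ _ _ _ * blk _ _ _ _ _ _ _ _ _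
    rw [blk_hi, blk_lo, ← tv_inv, ← mul_assoc, ← mul_assoc, conj_tv x v f f0 k0]
    congr 1
    apply Subtype.ext
    rw [coe_tv, coe_tv, vecMulVec_smul, smul_vecMulVec, smul_smul, smul_smul]
    congr 2
    field_simp
  rw [e3]
  refine (fpr_sl2_hom h4 φ (lo_hi_notMem _ (neg_ne_zero.2 hy0))).trans ?_
  refine add_le_add ?_ le_rfl
  refine (fpr_anti Ω (A := Rt v f) ?_).trans ?_
  · rintro _ ⟨h5, t, rfl⟩
    exact ⟨hi t, blk_hi _ _ _ _ _⟩
  · have := root_le Ω h3 hΩ f0 hv0 hf0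
    rwa [Nat.card_eq_fintype_card] at this

end Main

theorem br_sl : Cfsg.Agent.H254.BS.PI.BR_SL := by
  intro n₀
  refine ⟨(3 * n₀ ^ 2 + 8) ^ 2, by positivity, ?_⟩
  intro F _ _ n h2 hn hq x hx Ω _ _ hΩ
  have hC : 64 ≤ (3 * n₀ ^ 2 + 8) ^ 2 := by nlinarith [Nat.zero_le (n₀ ^ 2), Nat.zero_le (n₀ ^ 2 * n₀ ^ 2)]
  have f0 := fpr_nonneg Ω ({x} : Set _)
  have f1 := fpr_le_one Ω ({x} : Set _)
  rcases lt_or_ge (Fintype.card F) 4 with h4 | h4
  · have h5 : fpr Ω {x} ^ ((3 * n₀ ^ 2 + 8) ^ 2) ≤ 1 := pow_le_one₀ f0 f1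
    have h6 : (Fintype.card F : ℝ) ≤ 64 := by
      have : Fintype.card F ≤ 64 := by omega
      exact_mod_cast this
    have h7 : (64 : ℝ) ≤ (((3 * n₀ ^ 2 + 8) ^ 2 : ℕ) : ℝ) := by exact_mod_cast hC
    have h8 : (0 : ℝ) ≤ Fintype.card F := Nat.cast_nonneg _
    nlinarith
  have hqR : (4 : ℝ) ≤ Fintype.card F := by exact_mod_cast h4
  set s := √(Fintype.card F : ℝ) with hs
  have hs2 : s ^ 2 = Fintype.card F := Real.sq_sqrt (by linarith)
  have hs0 : 2 ≤ s := by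
    rw [hs]
    exact Real.le_sqrt_of_sq_le (by linarith)
  -- the fourth power
  have h5 : fpr Ω {x} ^ 4 * (Fintype.card F : ℝ) ≤ (((3 * n₀ ^ 2 + 8) ^ 2 : ℕ) : ℝ) := by
    rcases eq_or_lt_of_le h2 with h2' | h2'
    · subst h2'
      have h6 := fpr_sl2 h4 (Ω := Ω) hx
      have h7 : fpr Ω (Set.univ : Set (SpecialLinearGroup (Fin 2) F)) = 0 := by
        rw [fpr_eq]
        have : Fx Ω (Set.univ : Set (SpecialLinearGroup (Fin 2) F)) = ∅ := by
          rw [Set.eq_empty_iff_forall_notMem]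
          intro w hw
          obtain ⟨g, hg⟩ := hΩ w
          exact hg (hw g trivial)
        rw [this, Set.ncard_empty, Nat.cast_zero, zero_div]
      rw [h7, zero_add, le_div_iff₀ (by linarith)] at h6
      have h8 : (64 : ℝ) ≤ (((3 * n₀ ^ 2 + 8) ^ 2 : ℕ) : ℝ) := by exact_mod_cast hC
      have h9 : (fpr Ω {x} * s) ^ 2 ≤ 7 ^ 2 := pow_le_pow_left₀ (by positivity) h6 2
      have h10 : fpr Ω {x} ^ 4 * (Fintype.card F : ℝ) = (fpr Ω {x} * s) ^ 2 * fpr Ω {x} ^ 2 := by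
        rw [← hs2]; ring
      rw [h10]
      have h11 : fpr Ω {x} ^ 2 ≤ 1 := pow_le_one₀ f0 f1
      nlinarith [sq_nonneg (fpr Ω {x}), sq_nonneg (fpr Ω {x} * s)]
    · have h6 := fpr_sq_le Ω h4 (by rw [Fintype.card_fin]; omega) hΩ hx
      rw [Fintype.card_fin, ← hs] at h6
      have h7 : fpr Ω {x} ^ 2 * s ≤ 3 * (n₀ : ℝ) ^ 2 + 8 := by
        have h8 : (n : ℝ) ^ 2 ≤ (n₀ : ℝ) ^ 2 := by
          have : (n : ℝ) ≤ n₀ := by exact_mod_cast hn
          exact pow_le_pow_left₀ (Nat.cast_nonneg _) this 2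
        have h9 : 3 * (n : ℝ) ^ 2 / (Fintype.card F : ℝ) + 7 / s + 1 / (Fintype.card F : ℝ) =
            (3 * (n : ℝ) ^ 2 + 7 * s + 1) / s ^ 2 := by
          rw [hs2]
          have hs3 : 7 / s = 7 * s / (Fintype.card F : ℝ) := by
            rw [← hs2]
            field_simp
          rw [hs3]
          ring
        rw [h9, le_div_iff₀ (by positivity)] at h6
        have h10 : fpr Ω {x} ^ 2 * s * s ≤ (3 * (n₀ : ℝ) ^ 2 + 8) * s := by
          nlinarith [sq_nonneg (n₀ : ℝ)]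
        exact le_of_mul_le_mul_right h10 (by linarith)
      have h8 : fpr Ω {x} ^ 4 * (Fintype.card F : ℝ) = (fpr Ω {x} ^ 2 * s) ^ 2 := by
        rw [← hs2]; ring
      rw [h8]
      push_cast
      exact pow_le_pow_left₀ (by positivity) h7 2
  refine le_trans (mul_le_mul_of_nonneg_right ?_ (by linarith)) h5
  exact pow_le_pow_of_le_one f0 f1 (by omega)

end Cfsg.Agent.H503.FP
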